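import Cfsg.Agent.H729.Count
import Cfsg.Agent.H334.Ore.M23

/-!
# Centralizers in `M24` and `M23` (helper733)

For a group `G` with an injective homomorphism `φ : G →* M24`:

* `three` : a 3-subgroup whose centralizer is a 3-group, if the image contains `el A3` and `el B3`;
* `cyc11`, `cyc23` : the same for the primes 11 and 23;
* `seven` : the 7-regular elements of `C(x)`, `x` of order 7 in `M23`, have order 1 or 2;
* `real5` : an element of order 5 of `M23` which is conjugate to its inverse;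
* `invol23` : all the involutions of `M23` are conjugate.
-/

set_option autoImplicit false
set_option maxRecDepth 100000

namespace Cfsg.Agent.H733.EP

open Cfsg Subgroup
open Cfsg.Agent.SporadicA.GolayBase Cfsg.Agent.SporadicA.GolayPerm
open Cfsg.Agent.SporadicStructure.M24El Cfsg.Agent.H729.Trans Cfsg.Agent.H729.MData Cfsg.Agent.H729.Count

variable {G : Type*} [Group G]

theorem st_range {sts : List (ℕ × List ℕ × List (List (ℕ × ℕ)))}
    (h : (sts.all fun st => decide (st.2.1 = List.range 24)) = true) (g : M24) : ∀ st ∈ sts, im g st.1 ∈ st.2.1 := by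
  intro st hst
  have h1 := of_decide_eq_true (List.all_eq_true.1 h st hst)
  rw [h1]
  exact List.mem_range.2 (im_lt g _)

theorem eq_one_of_list (φ : G →* M24) (hφ : Function.Injective φ) {x : G} {p c : ℕ}
    {wd : List (ℕ × ℕ)} {sts : List (ℕ × List ℕ × List (List (ℕ × ℕ)))}
    (h : pre p c wd sts = true) (hx : φ x = el c)
    {t : ℕ → Bool} {n : ℕ} (hn : ((tl p c c wd sts).all fun P => !(t P) || Nat.beq (ppow P n) idP) = true)
    {z : G} (hst : ∀ st ∈ sts, im (φ z) st.1 ∈ st.2.1)
    (ht : t (packOf (φ z : Equiv.Perm GolayPt)) = true) (hz : z * x = x * z) : z ^ n = 1 := by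
  have hc := ok_of_pre h
  have key : packOf (φ z : Equiv.Perm GolayPt) ∈ tl p c c wd sts := by
    refine packOf_mem_tl h hc (φ z) ?_ hst
    rw [← hx, ← map_mul, ← map_mul, hz]
  have h0 := List.all_eq_true.1 hn _ key
  rw [ht] at h0
  have h1 := Nat.eq_of_beq_eq_true h0
  have h2 : (φ z) ^ n = 1 := by
    rw [← el_packOf (φ z), ← el_ppow (ok_packOf _), h1, el_idP]
  exact hφ (by rw [map_pow, h2, map_one])

/-! ### `p = 3` -/

def A3 : ℕ := 960825421553334439665008362244049969
def B3 : ℕ := 976259021213182638697806105180082223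

def wdA : List (ℕ × ℕ) := [(4, 1), (2, 0), (11, 1), (11, 2), (7, 0), (0, 1), (6, 0), (7, 1), (5, 0), (11, 0), (5, 1),
  (0, 2), (1, 0), (10, 0), (5, 2), (4, 0), (6, 1), (4, 2), (9, 0), (8, 0), (0, 0), (6, 2), (7, 2), (3, 0)]

/-- the points with the same fixed point pattern under `A3`, `B3` -/
def cnd (j : ℕ) : List ℕ := (List.range 24).filter fun i =>
  !(Bool.xor (Nat.beq (papp A3 i) i) (Nat.beq (papp A3 j) j)) && !(Bool.xor (Nat.beq (papp B3 i) i) (Nat.beq (papp B3 j) j))

def stA : List (ℕ × List ℕ × List (List (ℕ × ℕ))) := [(20, cnd 20, []),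
  (12, cnd 12, []),
  (1, cnd 1, []),
  (23, cnd 23, []),
  (15, cnd 15, [[(4, 1), (0, 1), (0, 2), (1, 0), (4, 0), (4, 2), (0, 0), (3, 0)]]),
  (8, cnd 8, [[(2, 0), (0, 1), (5, 0), (5, 1), (0, 2), (5, 2), (0, 0), (3, 0)]]),
  (6, cnd 6, [[(6, 0), (5, 0), (0, 2), (5, 2), (4, 0), (4, 2), (0, 0), (6, 2)]]),
  (4, cnd 4, [[(2, 0), (7, 0), (7, 1), (5, 0), (0, 2), (1, 0), (4, 2), (0, 0)]]),
  (19, cnd 19, [[(7, 0), (0, 2), (1, 0), (4, 0), (8, 0), (0, 0), (6, 2), (7, 2)]]),
  (18, cnd 18, [[(7, 0), (0, 1), (1, 0), (5, 2), (6, 1), (9, 0), (8, 0), (6, 2)]]),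
  (13, cnd 13, []),
  (9, cnd 9, [[(2, 0), (11, 1), (11, 0), (4, 2), (9, 0), (6, 2), (7, 2), (3, 0)]])]

theorem preA : pre 3 A3 wdA stA = true := by decide +kernel

theorem okA : ok A3 = true := ok_of_pre preA

theorem okB : ok B3 = true := by decide +kernel

theorem chkB : (Nat.beq (pcomp A3 B3) (pcomp B3 A3) && (Nat.beq (ppow A3 3) idP && Nat.beq (ppow B3 3) idP)) = true := by
  decide +kernel

/-- the test `P` commutes with `B3` -/
def tB (P : ℕ) : Bool := (List.range 24).all fun i => Nat.beq (papp P (papp B3 i)) (papp B3 (papp P i))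

theorem lstA : ((tl 3 A3 A3 wdA stA).all fun P => !(tB P) || Nat.beq (ppow P 3) idP) = true := by decide +kernel

theorem tB_of_comm {P : ℕ} (hP : ok P = true) (h : el P * el B3 = el B3 * el P) : tB P = true := by
  refine List.all_eq_true.2 fun i hi => ?_
  have hi' : i < 24 := List.mem_range.1 hi
  have h4 := idx_el_smul (ok_pcomp hP okB) (pt i)
  have h5 := idx_el_smul (ok_pcomp okB hP) (pt i)
  rw [el_pcomp hP okB, h, ← el_pcomp okB hP, h5, idx_pt hi'] at h4
  rw [papp_pcomp _ _ hi', papp_pcomp _ _ hi'] at h4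
  rw [Nat.beq_eq, h4]

theorem im_cnd {g : M24} (hA : g * el A3 = el A3 * g) (hB : g * el B3 = el B3 * g) {j : ℕ} (hj : j < 24) :
    im g j ∈ cnd j := by
  have key : ∀ {c : ℕ}, ok c = true → g * el c = el c * g →
      (!(Bool.xor (Nat.beq (papp c (im g j)) (im g j)) (Nat.beq (papp c j) j))) = true := by
    intro c hc hg
    have h1 := im_papp hc hc g hg hj
    by_cases h2 : papp c j = j
    · rw [h2] at h1
      rw [← h1, h2, Nat.beq_refl, Nat.beq_refl]
      rfl
    · have h3 : Nat.beq (papp c j) j = false := by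
        rw [Bool.eq_false_iff]
        exact fun h => h2 (Nat.eq_of_beq_eq_true h)
      have h4 : Nat.beq (papp c (im g j)) (im g j) = false := by
        rw [Bool.eq_false_iff]
        intro h
        have h5 := Nat.eq_of_beq_eq_true h
        rw [← h1] at h5
        exact h2 (im_inj g (papp_lt (ok_iff.1 hc).1 hj) hj h5)
      rw [h3, h4]
      rfl
  unfold cnd
  rw [List.mem_filter, Bool.and_eq_true]
  exact ⟨List.mem_range.2 (im_lt g j), key okA hA, key okB hB⟩

theorem st_cnd : (stA.all fun st => Nat.blt st.1 24 && decide (st.2.1 = cnd st.1)) = true := by decide +kernel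

/-- **`p = 3`** -/
theorem three (φ : G →* M24) (hφ : Function.Injective φ) {a b : G} (ha : φ a = el A3) (hb : φ b = el B3) :
    ∃ U : Subgroup G, IsPGroup 3 U ∧ IsPGroup 3 (centralizer (U : Set G)) := by
  have hB := chkB
  rw [Bool.and_eq_true, Bool.and_eq_true, Nat.beq_eq, Nat.beq_eq, Nat.beq_eq] at hB
  obtain ⟨hB1, hB2, hB3⟩ := hB
  have hab : a * b = b * a := by
    apply hφ
    rw [map_mul, map_mul, ha, hb, ← el_pcomp okA okB, ← el_pcomp okB okA, hB1]
  have ha3 : a ^ 3 = 1 := by
    apply hφ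
    rw [map_pow, ha, ← el_ppow okA, hB2, el_idP, map_one]
  have hb3 : b ^ 3 = 1 := by
    apply hφ
    rw [map_pow, hb, ← el_ppow okB, hB3, el_idP, map_one]
  refine ⟨closure {a, b}, ?_, ?_⟩
  · have key : ∀ x ∈ closure ({a, b} : Set G), x ^ 3 = 1 := by
      have hcomm : ∀ x ∈ ({a, b} : Set G), ∀ y ∈ ({a, b} : Set G), x * y = y * x := by
        rintro x (rfl | rfl) y (rfl | rfl)
        · rfl
        · exact hab
        · exact hab.symm
        · rfl
      have hc := Subgroup.isMulCommutative_closure hcomm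
      intro x hx
      induction hx using Subgroup.closure_induction with
      | mem x hx =>
        rcases hx with rfl | rfl
        · exact ha3
        · exact hb3
      | one => exact one_pow 3
      | mul x y hx hy h1 h2 =>
        have h3 : Commute x y := congrArg Subtype.val (hc.is_comm.comm ⟨x, hx⟩ ⟨y, hy⟩)
        rw [h3.mul_pow, h1, h2, one_mul]
      | inv x hx h1 => rw [inv_pow, h1, inv_one]
    rintro ⟨x, hx⟩
    exact ⟨1, Subtype.ext (by rw [pow_one]; exact key x hx)⟩
  · rintro ⟨z, hz⟩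
    refine ⟨1, Subtype.ext ?_⟩
    rw [pow_one]
    show z ^ 3 = 1
    have hza : a * z = z * a := mem_centralizer_iff.1 hz a (subset_closure (Or.inl rfl))
    have hzb : b * z = z * b := mem_centralizer_iff.1 hz b (subset_closure (Or.inr rfl))
    have hA : φ z * el A3 = el A3 * φ z := by rw [← ha, ← map_mul, ← map_mul, hza]
    have hB : φ z * el B3 = el B3 * φ z := by rw [← hb, ← map_mul, ← map_mul, hzb]
    refine eq_one_of_list φ hφ preA ha lstA ?_ (tB_of_comm (ok_packOf _) ?_) hza.symm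
    · intro st hst
      have h1 := List.all_eq_true.1 st_cnd st hst
      rw [Bool.and_eq_true] at h1
      rw [of_decide_eq_true h1.2]
      exact im_cnd hA hB (Nat.blt_eq.mp h1.1)
    · rw [el_packOf, hB]

/-- the cyclic case -/
theorem cyc (φ : G →* M24) (hφ : Function.Injective φ) {x : G} {p c : ℕ}
    {wd : List (ℕ × ℕ)} {sts : List (ℕ × List ℕ × List (List (ℕ × ℕ)))}
    (h : pre p c wd sts = true) (hx : φ x = el c) (hst : (sts.all fun st => decide (st.2.1 = List.range 24)) = true)
    (hn : ((tl p c c wd sts).all fun P => !(true) || Nat.beq (ppow P p) idP) = true) :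
    ∃ U : Subgroup G, IsPGroup p U ∧ IsPGroup p (centralizer (U : Set G)) := by
  have key : ∀ z : G, z * x = x * z → z ^ p = 1 := fun z hz =>
    eq_one_of_list φ hφ h hx (t := fun _ => true) hn (st_range hst _) rfl hz
  refine ⟨zpowers x, ?_, ?_⟩
  · rintro ⟨z, hz⟩
    obtain ⟨k, rfl⟩ := Subgroup.mem_zpowers_iff.1 hz
    refine ⟨1, Subtype.ext ?_⟩
    rw [pow_one]
    exact key _ (((Commute.refl x).zpow_left k).eq)
  · rintro ⟨z, hz⟩
    refine ⟨1, Subtype.ext ?_⟩
    rw [pow_one]
    exact key z (mem_centralizer_iff.1 hz x (mem_zpowers x)).symm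

theorem lst23 : ((tl 23 c23 c23 wd23 st23).all fun P => !(true) || Nat.beq (ppow P 23) idP) = true := by decide +kernel

theorem lst11 : ((tl 11 c11 c11 wd11 st11).all fun P => !(true) || Nat.beq (ppow P 11) idP) = true := by decide +kernel

theorem cyc23 (φ : G →* M24) (hφ : Function.Injective φ) {x : G} (hx : φ x = el c23) :
    ∃ U : Subgroup G, IsPGroup 23 U ∧ IsPGroup 23 (centralizer (U : Set G)) :=
  cyc φ hφ pre23 hx (by decide +kernel) lst23

theorem cyc11 (φ : G →* M24) (hφ : Function.Injective φ) {x : G} (hx : φ x = el c11) :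
    ∃ U : Subgroup G, IsPGroup 11 U ∧ IsPGroup 11 (centralizer (U : Set G)) :=
  cyc φ hφ pre11 hx (by decide +kernel) lst11

/-! ### `p = 7` in `M23` -/

def st7 : List (ℕ × List ℕ × List (List (ℕ × ℕ))) := [(0, List.range 24, []),
  (17, List.range 24, []),
  (23, [23], []),
  (1, List.range 24, [[(0, 0), (3, 0), (3, 3), (3, 4), (3, 2), (3, 6), (3, 1), (3, 5)]]),
  (2, List.range 24, [[(0, 0), (3, 0), (3, 3), (4, 3), (4, 4), (4, 6), (3, 1), (1, 0)]]),
  (7, List.range 24, [[(0, 0), (5, 2), (4, 1), (1, 0), (5, 4), (5, 6), (3, 5), (5, 3)]])]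

theorem pre7 : pre 7 cM7 wdM7 st7 = true := by decide +kernel

theorem lst7 : ((tl 7 cM7 cM7 wdM7 st7).all fun P => !(true) || Nat.beq (ppow P 14) idP) = true := by
  decide +kernel

theorem st7_chk : (st7.all fun st => decide (st.2.1 = List.range 24) || (Nat.beq st.1 23 && decide (st.2.1 = [23]))) = true := by
  decide +kernel

theorem pow7 : Nat.beq (ppow cM7 7) idP = true := by decide +kernel

/-- **`p = 7`** -/
theorem seven (φ : G →* M24) (hφ : Function.Injective φ) (h23 : ∀ g : G, im (φ g) 23 = 23) {x : G} (hx : φ x = el cM7) :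
    ∃ U : Subgroup G, IsPGroup 7 U ∧ ∀ z ∈ centralizer (U : Set G), ¬ 7 ∣ orderOf z → z ≠ 1 → orderOf z = 2 := by
  have hc := ok_of_pre pre7
  have hx7 : x ^ 7 = 1 := by
    apply hφ
    rw [map_pow, hx, ← el_ppow hc, Nat.eq_of_beq_eq_true pow7, el_idP, map_one]
  refine ⟨zpowers x, ?_, ?_⟩
  · rintro ⟨z, hz⟩
    obtain ⟨k, rfl⟩ := Subgroup.mem_zpowers_iff.1 hz
    refine ⟨1, Subtype.ext ?_⟩
    rw [pow_one]
    show (x ^ k) ^ 7 = 1
    rw [← zpow_natCast, ← zpow_mul, mul_comm, zpow_mul, zpow_natCast, hx7, one_zpow]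
  · intro z hz h7 h1
    have h2 : z ^ 14 = 1 := by
      refine eq_one_of_list φ hφ pre7 hx (t := fun _ => true) lst7 ?_ rfl
        (mem_centralizer_iff.1 hz x (mem_zpowers x)).symm
      intro st hst
      have h3 := List.all_eq_true.1 st7_chk st hst
      rw [Bool.or_eq_true, Bool.and_eq_true, Nat.beq_eq] at h3
      rcases h3 with h3 | ⟨h3, h4⟩
      · rw [of_decide_eq_true h3]
        exact List.mem_range.2 (im_lt _ _)
      · rw [of_decide_eq_true h4, h3, h23]
        exact List.mem_singleton.2 rfl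
    have h3 : orderOf z ∣ 14 := orderOf_dvd_of_pow_eq_one h2
    have h4 : orderOf z ∈ Nat.divisors 14 := Nat.mem_divisors.2 ⟨h3, by norm_num⟩
    have h5 : ∀ n ∈ Nat.divisors 14, ¬ 7 ∣ n → n ≠ 1 → n = 2 := by decide
    exact h5 _ h4 h7 fun h => h1 (orderOf_eq_one_iff.1 h)

/-! ### `p = 5` in `M23` -/

def cR5 : ℕ := 984716542135906806873716780210567211
def gR5 : ℕ := 984450628088076032672601848529010720

theorem okc5 : ok cR5 = true := by decide +kernel
theorem okg5 : ok gR5 = true := by decide +kernel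
theorem chk5 : (Nat.beq (pcomp gR5 cR5) (pcomp (ppow cR5 4) gR5) && (Nat.beq (ppow cR5 5) idP &&
    !(Nat.beq (papp cR5 0) 0))) = true := by decide +kernel

theorem real5 (φ : G →* M24) (hφ : Function.Injective φ) {x g : G} (hx : φ x = el cR5) (hg : φ g = el gR5) :
    orderOf x = 5 ∧ IsConj x x⁻¹ := by
  have h := chk5
  rw [Bool.and_eq_true, Bool.and_eq_true, Nat.beq_eq, Nat.beq_eq, Bool.not_eq_true'] at h
  obtain ⟨h1, h2, h3⟩ := h
  have h5 : x ^ 5 = 1 := by
    apply hφ
    rw [map_pow, hx, ← el_ppow okc5, h2, el_idP, map_one]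
  have hne : x ≠ 1 := by
    rintro rfl
    rw [map_one] at hx
    have h4 := idx_el_smul okc5 (pt 0)
    rw [← hx, one_smul, idx_pt (by norm_num : (0 : ℕ) < 24)] at h4
    rw [← h4, Nat.beq_refl] at h3
    exact Bool.noConfusion h3
  have : Fact (Nat.Prime 5) := ⟨by norm_num⟩
  refine ⟨orderOf_eq_prime h5 hne, isConj_iff.2 ⟨g, ?_⟩⟩
  have h6 : g * x = x ^ 4 * g := by
    apply hφ
    rw [map_mul, map_mul, map_pow, hx, hg, ← el_ppow okc5, ← el_pcomp okg5 okc5,
      ← el_pcomp (ok_ppow okc5 4) okg5, h1]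
  have h7 : x ^ 4 = x⁻¹ := eq_inv_of_mul_eq_one_left (by rw [← pow_succ, h5])
  rw [h6, h7, mul_inv_cancel_right]

/-! ### the involutions of `M23` -/

open Cfsg.Agent.H334.Ore

theorem chk2 : (M23Data.D.all fun r => ok r.c && (((List.range 24).any fun i => !(Nat.beq (papp r.c (papp r.c i)) i)) ||
    Nat.beq r.c M23Data.r0.c)) = true := by
  decide +kernel

/-- all the involutions of `M23` are conjugate -/
theorem invol23 {y z : Spor.M23} (hy : orderOf y = 2) (hz : orderOf z = 2) : IsConj y z := by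
  have key : ∀ y : Spor.M23, orderOf y = 2 → ∃ x : Spor.M23, M23.inc23 x = el M23Data.r0.c ∧ IsConj x y := by
    intro y hy
    rcases M23.cov y with h | ⟨r, hr, x, hx, hxy⟩
    · rw [h, orderOf_one] at hy
      exact absurd hy (by norm_num)
    · have h1 := List.all_eq_true.1 chk2 r hr
      rw [Bool.and_eq_true] at h1
      obtain ⟨h2, h3⟩ := h1
      have h4 : x ^ 2 = 1 := by
        obtain ⟨g, hg⟩ := isConj_iff.1 hxy.symm
        rw [← hg, conj_pow, ← hy, pow_orderOf_eq_one, mul_one, mul_inv_cancel]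
      have h5 : ((List.range 24).any fun i => !(Nat.beq (papp r.c (papp r.c i)) i)) = false := by
        rw [List.any_eq_false]
        intro i hi
        have hi' : i < 24 := List.mem_range.1 hi
        have h6 : el r.c ^ 2 = 1 := by rw [← hx, ← map_pow, h4, map_one]
        have h7 := idx_el_smul h2 (el r.c • pt i)
        rw [← mul_smul, ← pow_two, h6, one_smul, idx_pt hi', idx_el_smul h2, idx_pt hi'] at h7
        rw [← h7, Nat.beq_refl]
        decide
      rw [h5, Bool.false_or] at h3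
      have h7 : r.c = M23Data.r0.c := Nat.eq_of_beq_eq_true h3
      exact ⟨x, by rw [hx, h7], hxy⟩
  obtain ⟨a, ha, hay⟩ := key y hy
  obtain ⟨b, hb, hbz⟩ := key z hz
  have h1 : a = b := M23.inc23_injective (by rw [ha, hb])
  rw [h1] at hay
  exact hay.symm.trans hbz

end Cfsg.Agent.H733.EP
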